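import Cfsg.Agent.KoRo.Main
import Cfsg.Agent.S4958
import Cfsg.Agent.Solv.ExtAction2
import Cfsg.Agent.Grp.Fitting
import Cfsg.Agent.Grp.MinNormal

/-!
# Class numbers of solvable groups without normal `p'`-subgroups
-/

set_option autoImplicit false
set_option linter.style.haveILetI false
set_option linter.unusedSectionVars false
open scoped commutatorElement

namespace Cfsg.Agent.KoRo
open Subgroup SolvLin Cfsg

universe u

theorem cr_of_coprime {G V : Type*} [Group G] [Finite G] [AddCommGroup V] [Finite V]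
    [DistribMulAction G V] {p : ℕ} [Fact p.Prime] (hp : ∀ v : V, p • v = 0)
    (hc : (Nat.card G).Coprime (Nat.card V)) : CR G V := by
  letI : MulDistribMulAction G (Multiplicative V) :=
    { smul := fun a v => Multiplicative.ofAdd (a • v.toAdd)
      one_smul := fun v => one_smul G v.toAdd
      mul_smul := fun a b v => mul_smul a b v.toAdd
      smul_one := fun a => smul_zero (A := V) a
      smul_mul := fun a v w => smul_add a v.toAdd w.toAdd }
  intro U hU
  obtain ⟨W, h1, h2, h3⟩ := Solv.Ext.exists_inv_compl (A := G) (V := Multiplicative V) hp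
    (U := AddSubgroup.toSubgroup U) hU (hc.coprime_dvd_right U.card_addSubgroup_dvd_card)
  refine ⟨AddSubgroup.toSubgroup.symm W, h1, ?_, ?_⟩
  · simpa using congrArg AddSubgroup.toSubgroup.symm h2
  · simpa using congrArg AddSubgroup.toSubgroup.symm h3

theorem k_coprime {X : Type*} [Group X] [Finite X] (hX : Group.IsSolvable X) {p a : ℕ}
    [hp : Fact p.Prime] (V : Subgroup X) [V.Normal] (hV : ∀ v ∈ V, v ^ p = 1)
    (hi : ¬ p ∣ V.index) (hs : centralizer (V : Set X) = V) (ha : Nat.card V = p ^ a) :
    Nat.card (ConjClasses X) ≤ 3 ^ (a - 1) * p ^ a := by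
  have hcomm : ∀ x ∈ V, ∀ y ∈ V, x * y = y * x := fun x hx y hy => (hs.ge hy) x hx
  letI : CommGroup V := { (inferInstance : Group V) with
    mul_comm := fun x y => Subtype.ext (hcomm x x.2 y y.2) }
  let c : X ⧸ V →* MulAut V := QuotientGroup.lift V MulAut.conjNormal fun x hx => by
    ext y
    simp only [MulAut.conjNormal_apply, MulAut.one_apply]
    rw [hcomm x hx y y.2, mul_inv_cancel_right]
  letI : DistribMulAction (X ⧸ V) (Additive V) :=
    { smul := fun s x => Additive.ofMul (c s x.toMul)
      one_smul := fun x => by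
        change Additive.ofMul (c 1 x.toMul) = x
        simp
      mul_smul := fun s s' x => by
        change Additive.ofMul (c (s * s') x.toMul) = Additive.ofMul (c s (c s' x.toMul))
        simp
      smul_zero := fun s => by
        change Additive.ofMul (c s 1) = 0
        simp
      smul_add := fun s x y => by
        change Additive.ofMul (c s (x.toMul * y.toMul)) =
          Additive.ofMul (c s x.toMul * c s y.toMul)
        simp }
  have hsm : ∀ (g : X) (x : Additive V), (g : X ⧸ V) • x = x ↔ g * x.toMul = (x.toMul : V) * g :=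
    fun g x => by
      rw [← mul_inv_eq_iff_eq_mul]
      exact ⟨fun h => congrArg (fun y : Additive V => ((y.toMul : V) : X)) h,
        fun h => Additive.toMul.injective (Subtype.ext h)⟩
  have hcop : (Nat.card V).Coprime V.index :=
    ha ▸ (hp.out.coprime_iff_not_dvd.2 hi).pow_left a
  obtain ⟨N, _, h1, -, v, -, h2⟩ := good_cr (G := X ⧸ V) (V := Additive V) inferInstance
    (cr_of_coprime (p := p) (fun x => Additive.toMul.injective (Subtype.ext (hV _ x.toMul.2)))
      hcop.symm) hp.out ha
  let Y := N.comap (QuotientGroup.mk' V)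
  have hVY : V ≤ Y := fun x hx => by
    change (x : X ⧸ V) ∈ N
    rw [(QuotientGroup.eq_one_iff x).2 hx]
    exact one_mem _
  have hc : Nat.card (V.subgroupOf Y) = Nat.card V :=
    Nat.card_congr (subgroupOfEquivOfLe hVY).toEquiv
  have hd : (V.subgroupOf Y).index ∣ V.index := relIndex_dvd_index_of_le hVY
  obtain ⟨L, hL⟩ := exists_right_complement'_of_coprime (N := V.subgroupOf Y)
    (hc ▸ hcop.coprime_dvd_right hd)
  have h3 := S4958.result p (V.subgroupOf Y) (fun x hx => Subtype.ext (hV x hx))
    (fun h => hi (h.trans hd)) (le_antisymm (fun x hx => hs.le fun y hy =>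
      congrArg Subtype.val (hx ⟨y, hVY hy⟩ hy))
      fun x hx y hy => Subtype.ext (hcomm _ hy _ hx)) L hL ⟨v.toMul, hVY v.toMul.2⟩ v.toMul.2
      fun x hx y hy => by
        have h4 : ⁅x, y⁆ ∈ V.subgroupOf Y := hs.le fun z hz => ((hsm _ (Additive.ofMul ⟨z, hz⟩)).1
          (h2 x.1 x.2 y.1 y.2
            ((hsm _ _).2 (congrArg Subtype.val (mem_centralizer_singleton_iff.1 hx.2)))
            ((hsm _ _).2 (congrArg Subtype.val (mem_centralizer_singleton_iff.1 hy.2)))
            _ trivial)).symm
        have h5 : ⁅x, y⁆ ∈ L :=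
          mul_mem (mul_mem (mul_mem hx.1 hy.1) (inv_mem hx.1)) (inv_mem hy.1)
        exact commutatorElement_eq_one_iff_mul_comm.1 (disjoint_def.1 hL.disjoint h4 h5)
  rw [mul_comm, ← ha, ← hc]
  exact (S4201.result Y).trans (Nat.mul_le_mul h3 (h1.comap _).quot.top)

theorem grp_bound {p : ℕ} [hp : Fact p.Prime] (X : Type u) [Group X] [Finite X]
    (hX : Group.IsSolvable X) (h : pPrimeCore p X = ⊥) :
    Nat.card (ConjClasses X) ≤
      3 ^ ((Nat.card X).factorization p - 1) * p ^ (Nat.card X).factorization p := by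
  induction hn : Nat.card X using Nat.strong_induction_on generalizing X with | _ n ih => ?_
  subst hn
  rcases subsingleton_or_nontrivial X with h0 | h0
  · refine (SK.of_card le_rfl).top.trans ?_
    simp
  obtain ⟨q, E, hq, _, hE, hab, hexp, hEp, -⟩ := Grp.exists_minNormal_elementaryAbelian X
  haveI := Fact.mk hq
  obtain rfl : q = p := by
    by_contra hne
    obtain ⟨k, hk⟩ := hEp.exists_card_eq
    exact hE (Grp.pPrimeCore_eq_bot_iff.1 h E inferInstance
      (hk ▸ ((Nat.coprime_primes hq hp.out).2 hne).pow_left k))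
  obtain ⟨a, ha⟩ := hEp.exists_card_eq
  have ha0 : a ≠ 0 := by
    rintro rfl
    exact hE (card_eq_one.1 ha)
  let Q := (pPrimeCore q (X ⧸ E)).comap (QuotientGroup.mk' E)
  have hEQ : E ≤ Q := fun x hx => by
    change (x : X ⧸ E) ∈ pPrimeCore q _
    rw [(QuotientGroup.eq_one_iff x).2 hx]
    exact one_mem _
  have hc : Nat.card (E.subgroupOf Q) = q ^ a :=
    (Nat.card_congr (subgroupOfEquivOfLe hEQ).toEquiv).trans ha
  have hi : ¬ q ∣ (E.subgroupOf Q).index := by
    change ¬ q ∣ E.relIndex Q
    conv => enter [1, 2, 1]; rw [← QuotientGroup.ker_mk' E]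
    rw [← MonoidHom.comap_bot, relIndex_comap,
      map_comap_eq_self_of_surjective (QuotientGroup.mk'_surjective E), relIndex_bot_left]
    exact Grp.not_dvd_card_pPrimeCore q _
  have hP : IsPGroup q (E.subgroupOf Q) := IsPGroup.of_card hc
  have hO : pCore q Q = E.subgroupOf Q :=
    le_antisymm (Grp.pCore_le_sylow (hP.toSylow hi)) (Grp.le_pCore inferInstance hP)
  have h1 := k_coprime (X := Q) inferInstance (E.subgroupOf Q)
    (fun x hx => Subtype.ext (hexp x hx)) hi (le_antisymm
      (hO ▸ Grp.centralizer_pCore_le (by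
        rw [Grp.pPrimeCore_eq_subgroupOf_of_normal, h, bot_subgroupOf]))
      fun x hx y hy => Subtype.ext (setLike_mul_comm (s := E) hy hx)) hc
  have e : X ⧸ Q ≃* (X ⧸ E) ⧸ pPrimeCore q (X ⧸ E) :=
    (QuotientGroup.quotientQuotientEquivQuotient E Q hEQ).symm.trans
      (QuotientGroup.quotientMulEquivOfEq
        (map_comap_eq_self_of_surjective (QuotientGroup.mk'_surjective E) _))
  have hQ1 : 1 < Nat.card Q := (one_lt_card_iff_ne_bot Q).2 fun h => hE (le_bot_iff.1 (h ▸ hEQ))
  have hm := Q.card_mul_index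
  have h2 := ih _ (by
    have : 0 < Q.index := Nat.pos_of_ne_zero FiniteIndex.index_ne_zero
    change Q.index < _
    nlinarith) (X ⧸ Q) inferInstance (by
    rw [← Grp.comap_pPrimeCore_equiv q e, Grp.pPrimeCore_quotient_pPrimeCore]
    exact (MonoidHom.ker_eq_bot_iff _).2 e.injective) rfl
  have h3 : (Nat.card X).factorization q = a + (Nat.card (X ⧸ Q)).factorization q := by
    rw [← hm, Nat.factorization_mul Nat.card_pos.ne' FiniteIndex.index_ne_zero,
      ← (E.subgroupOf Q).card_mul_index, hc,
      Nat.factorization_mul (pow_ne_zero _ hq.ne_zero) FiniteIndex.index_ne_zero]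
    simp only [Finsupp.add_apply, Nat.factorization_eq_zero_of_not_dvd hi, hq.factorization_pow,
      Finsupp.single_eq_same, add_zero]
    rfl
  rw [h3]
  refine (S4201.result Q).trans ((Nat.mul_le_mul h1 h2).trans ?_)
  rw [mul_mul_mul_comm, ← pow_add, ← pow_add]
  exact Nat.mul_le_mul_right _ (Nat.pow_le_pow_right (by decide) (by omega))

end Cfsg.Agent.KoRo
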